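import Mathlib
import Cfsg.Prelude
import Cfsg.Agent.Lib.Helper3.Induction
import Cfsg.Agent.Lib.Helper26.Virtual
import Cfsg.Agent.Lib.Helper80.Quot

/-!
helper76: the Frobenius--Wielandt theorem.  If `K ⊴ L ≤ G` and `L ∩ L^g ≤ K` for all `g ∉ L`, then
there is a normal subgroup `M` of `G` with `M ∩ L = K` and `|M| = |G : L| |K|`.
(adapted from helper96's proof of Frobenius' theorem)
-/

set_option autoImplicit false

namespace Cfsg.Agent.Lib.Helper76.FrobWielandt

open Cfsg Cfsg.Agent.Lib.Helper3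
open scoped ComplexConjugate Pointwise

section
variable {G : Type*} [Group G]

/-- the hypotheses -/
structure FW (L K : Subgroup G) : Prop where
  le : K ≤ L
  nor : ∀ x ∈ L, ∀ k ∈ K, x * k * x⁻¹ ∈ K
  ti : ∀ g : G, g ∉ L → ∀ x ∈ L, g⁻¹ * x * g ∈ L → x ∈ K

/-- the set of elements with no conjugate in `L \ K`. -/
def dset (L K : Subgroup G) : Set G := {g | ∀ x : G, x⁻¹ * g * x ∈ L → x⁻¹ * g * x ∈ K}

theorem FW.conj_mem {L K : Subgroup G} (h : FW L K) {k x : G} (hk : k ∈ K)
    (hx : x⁻¹ * k * x ∈ L) : x⁻¹ * k * x ∈ K := by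
  by_cases hxL : x ∈ L
  · have := h.nor x⁻¹ (L.inv_mem hxL) k hk
    simpa using this
  · have hx' : x⁻¹ ∉ L := fun h' => hxL (by simpa using L.inv_mem h')
    apply h.ti x⁻¹ hx' _ hx
    have : x⁻¹⁻¹ * (x⁻¹ * k * x) * x⁻¹ = k := by group
    rw [this]
    exact h.le hk

theorem FW.le_dset {L K : Subgroup G} (h : FW L K) {k : G} (hk : k ∈ K) : k ∈ dset L K :=
  fun _ hx => h.conj_mem hk hx

variable [Fintype G]

theorem indFun_mem {L K : Subgroup G} (hF : FW L K) (φ : L → ℂ)
    (hφ : IsClassFunction L φ) (hφK : ∀ k : L, (k : G) ∈ K → φ k = 0) (h : L) :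
    indFun L φ h = φ h := by
  classical
  have := Fintype.ofFinite L
  have hN : (Nat.card L : ℂ) ≠ 0 := by exact_mod_cast Nat.card_pos.ne'
  rw [indFun_apply]
  have key : ∀ x : G, extendByZero L φ (x⁻¹ * h * x) = extendByZero L (fun _ => φ h) x := by
    intro x
    by_cases hx : x ∈ L
    · rw [extendByZero_apply_mem _ _ hx]
      have hmem : x⁻¹ * h * x ∈ L := L.mul_mem (L.mul_mem (L.inv_mem hx) h.2) hx
      rw [extendByZero_apply_mem _ _ hmem]
      have := hφ h (⟨x, hx⟩ : L)⁻¹
      rw [← this]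
      congr 1
      ext
      simp
    · rw [extendByZero_apply_not_mem _ _ hx]
      by_cases hmem : x⁻¹ * h * x ∈ L
      · rw [extendByZero_apply_mem _ _ hmem]
        apply hφK
        exact hF.conj_mem (hF.ti x hx h h.2 hmem) hmem
      · exact extendByZero_apply_not_mem _ _ hmem
  simp only [key]
  rw [sum_extendByZero]
  simp only [Finset.sum_const, Finset.card_univ, nsmul_eq_mul]
  rw [← Nat.card_eq_fintype_card (α := L)]
  field_simp

theorem indFun_dset {L K : Subgroup G} (φ : L → ℂ) (hφK : ∀ k : L, (k : G) ∈ K → φ k = 0) (g : G)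
    (hg : g ∈ dset L K) : indFun L φ g = 0 := by
  rw [indFun_apply]
  have key : ∀ x : G, extendByZero L φ (x⁻¹ * g * x) = 0 := by
    intro x
    by_cases hmem : x⁻¹ * g * x ∈ L
    · rw [extendByZero_apply_mem _ _ hmem]
      exact hφK _ (hg x hmem)
    · exact extendByZero_apply_not_mem _ _ hmem
  simp [key]

theorem exists_extension {L K : Subgroup G} (hF : FW L K) (θ : L → ℂ)
    (hθ : IsIrrCharacter L θ) (hθK : ∀ k : L, (k : G) ∈ K → θ k = θ 1) :
    ∃ χ : G → ℂ, IsCharacter G χ ∧ (∀ h : L, χ h = θ h) ∧ ∀ k ∈ dset L K, χ k = χ 1 := by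
  classical
  have := Fintype.ofFinite L
  by_cases hθ1 : θ = 1
  · subst hθ1
    exact ⟨1, isCharacter_one, fun _ => rfl, fun _ _ => rfl⟩
  obtain ⟨n, hn⟩ := IsCharacter.apply_one_eq_natCast (IsIrrCharacter.isCharacter hθ)
  have hn0 : (n : ℂ) ≠ 0 := hn ▸ IsIrrCharacter.apply_one_ne_zero hθ
  have h1H : IsIrrCharacter L (1 : L → ℂ) := Cfsg.Agent.Lib.Helper74.isIrrCharacter_one
  have h1G : IsIrrCharacter G (1 : G → ℂ) := Cfsg.Agent.Lib.Helper74.isIrrCharacter_one
  set φ : L → ℂ := θ - (n : ℂ) • (1 : L → ℂ) with hφdef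
  have hφK : ∀ k : L, (k : G) ∈ K → φ k = 0 := by
    intro k hk
    simp [hφdef, hθK k hk, hn]
  have hφcf : IsClassFunction L φ := by
    intro g h
    simp only [hφdef, Pi.sub_apply, Pi.smul_apply, Pi.one_apply]
    rw [IsCharacter.isClassFunction (IsIrrCharacter.isCharacter hθ) g h]
  set χ : G → ℂ := indFun L φ + (n : ℂ) • (1 : G → ℂ) with hχdef
  have hres : ∀ h : L, χ h = θ h := by
    intro h
    simp only [hχdef, Pi.add_apply, Pi.smul_apply, Pi.one_apply]
    rw [indFun_mem hF φ hφcf hφK h]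
    simp [hφdef]
  have hχ1 : χ 1 = n := by
    have := hres 1
    rw [Subgroup.coe_one] at this
    rw [this, hn]
  have hker : ∀ k ∈ dset L K, χ k = χ 1 := by
    intro k hk
    rw [hχ1]
    simp only [hχdef, Pi.add_apply, Pi.smul_apply, Pi.one_apply]
    rw [indFun_dset φ hφK k hk]
    simp
  have hgen : IsGeneralizedCharacter G χ := by
    refine ⟨indFun L θ + n • (1 : G → ℂ), n • indFun L (1 : L → ℂ),
      IsCharacter.add (isCharacter_indFun L (IsIrrCharacter.isCharacter hθ))
        (IsCharacter.nsmul isCharacter_one n),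
      IsCharacter.nsmul (isCharacter_indFun L isCharacter_one) n, ?_⟩
    rw [hχdef, hφdef, indFun_sub, indFun_smul]
    ext g
    simp
    ring
  -- inner products
  have e1 : classInner θ θ = 1 := classInner_irr_self hθ
  have e2 : classInner θ (1 : L → ℂ) = 0 := classInner_irr_ne hθ h1H hθ1
  have e3 : classInner (1 : L → ℂ) θ = 0 := classInner_irr_ne h1H hθ (Ne.symm hθ1)
  have e4 : classInner (1 : L → ℂ) (1 : L → ℂ) = 1 := classInner_irr_self h1H
  have e5 : classInner (1 : G → ℂ) (1 : G → ℂ) = 1 := classInner_irr_self h1G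
  have hcn : conj (n : ℂ) = n := Complex.conj_natCast n
  have f1 : classInner φ φ = 1 + (n : ℂ) ^ 2 := by
    rw [hφdef, classInner_sub_left, classInner_sub_right, classInner_sub_right,
      classInner_smul_left, classInner_smul_right, classInner_smul_left, classInner_smul_right,
      e1, e2, e3, e4, hcn]
    ring
  have f2 : classInner (indFun L φ) (indFun L φ) = classInner φ φ := by
    rw [frobenius_reciprocity L φ (isClassFunction_indFun L φ)]
    simp only [classInner]
    congr 1
    refine Finset.sum_congr rfl fun x _ => ?_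
    rw [indFun_mem hF φ hφcf hφK x]
  have f3 : classInner (indFun L φ) (1 : G → ℂ) = -(n : ℂ) := by
    rw [frobenius_reciprocity L φ (IsCharacter.isClassFunction isCharacter_one)]
    change classInner φ (1 : L → ℂ) = _
    rw [hφdef, classInner_sub_left, classInner_smul_left, e2, e4]
    ring
  have f4 : classInner (1 : G → ℂ) (indFun L φ) = -(n : ℂ) := by
    rw [← classInner_conj_symm, f3, map_neg, hcn]
  have hnorm : classInner χ χ = 1 := by
    rw [hχdef, classInner_add_left, classInner_add_right, classInner_add_right,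
      classInner_smul_left, classInner_smul_right, classInner_smul_left, classInner_smul_right,
      f2, f1, f3, f4, e5, hcn]
    ring
  rcases Cfsg.Agent.Lib.Helper26.gen_norm_one hgen hnorm with h | h
  · exact ⟨χ, IsIrrCharacter.isCharacter h, hres, hker⟩
  · exfalso
    obtain ⟨m, hm⟩ := IsCharacter.apply_one_eq_natCast (IsIrrCharacter.isCharacter h)
    rw [Pi.neg_apply, hχ1] at hm
    have h2 : ((n + m : ℕ) : ℂ) = 0 := by push_cast; rw [← hm]; ring
    have h3 : n + m = 0 := by exact_mod_cast h2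
    apply hn0
    have : n = 0 := by omega
    simp [this]

/-- the number of elements having no conjugate in `L \ K`. -/
theorem card_dset {L K : Subgroup G} (hF : FW L K) :
    Nat.card (dset L K) = L.index * Nat.card K := by
  classical
  have := Fintype.ofFinite L
  set φ : L → ℂ := fun x => if (x : G) ∈ K then 0 else 1 with hφdef
  have hφK : ∀ k : L, (k : G) ∈ K → φ k = 0 := by
    intro k hk
    simp [hφdef, hk]
  have hφcf : IsClassFunction L φ := by
    intro g h
    have : ((h * g * h⁻¹ : L) : G) ∈ K ↔ (g : G) ∈ K := by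
      constructor
      · intro h1
        have := hF.nor (h⁻¹ : L) (h⁻¹ : L).2 _ h1
        simpa [mul_assoc] using this
      · intro h1
        have := hF.nor h h.2 _ h1
        simpa using this
    simp only [hφdef, this]
  have hind : ∀ g : G, indFun L φ g = if g ∈ dset L K then 0 else 1 := by
    intro g
    by_cases hg : g ∈ dset L K
    · rw [if_pos hg, indFun_dset φ hφK g hg]
    · rw [if_neg hg]
      have hg' : ∃ x : G, x⁻¹ * g * x ∈ L ∧ x⁻¹ * g * x ∉ K := by
        by_contra hcon
        push Not at hcon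
        exact hg hcon
      obtain ⟨x, hx1, hx2⟩ := hg'
      have h1 := isClassFunction_indFun L φ g x⁻¹
      rw [inv_inv] at h1
      rw [← h1]
      have h2 := indFun_mem hF φ hφcf hφK ⟨_, hx1⟩
      rw [h2]
      simp [hφdef, hx2]
  have h1 := frobenius_reciprocity L φ (IsCharacter.isClassFunction (isCharacter_one (G := G)))
  simp only [classInner, Pi.one_apply, map_one, mul_one] at h1
  -- the two sums
  have s1 : ∑ g : G, indFun L φ g = (Nat.card G : ℂ) - (Nat.card (dset L K) : ℂ) := by
    simp only [hind]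
    have e1 : ∀ g : G, (if g ∈ dset L K then (0 : ℂ) else 1) = 1 - (if g ∈ dset L K then 1 else 0) := by
      intro g
      split_ifs <;> simp
    simp only [e1]
    rw [Finset.sum_sub_distrib, Finset.sum_boole]
    simp only [Finset.sum_const, Finset.card_univ, nsmul_eq_mul, mul_one]
    rw [Nat.card_eq_fintype_card, Nat.card_eq_fintype_card, Fintype.card_subtype]
  have s2 : ∑ x : L, φ x = (Nat.card L : ℂ) - (Nat.card K : ℂ) := by
    have e1 : ∀ x : L, φ x = 1 - (if x ∈ K.subgroupOf L then 1 else 0) := by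
      intro x
      simp only [hφdef, Subgroup.mem_subgroupOf]
      split_ifs <;> simp
    simp only [e1]
    rw [Finset.sum_sub_distrib, Finset.sum_boole]
    simp only [Finset.sum_const, Finset.card_univ, nsmul_eq_mul, mul_one]
    have e2 : Nat.card K = Nat.card (K.subgroupOf L) :=
      (Nat.card_congr (Subgroup.subgroupOfEquivOfLe hF.le).toEquiv).symm
    rw [e2, Nat.card_eq_fintype_card, Nat.card_eq_fintype_card (α := K.subgroupOf L),
      Fintype.card_subtype (fun x => x ∈ K.subgroupOf L)]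
  rw [s1, s2] at h1
  have hG : (Nat.card G : ℂ) ≠ 0 := by exact_mod_cast Nat.card_pos.ne'
  have hL : (Nat.card L : ℂ) ≠ 0 := by exact_mod_cast Nat.card_pos.ne'
  have hidx : (Nat.card G : ℂ) = (Nat.card L : ℂ) * (L.index : ℂ) := by
    exact_mod_cast (Subgroup.card_mul_index L).symm
  have h2 : (Nat.card (dset L K) : ℂ) = (L.index : ℂ) * (Nat.card K : ℂ) := by
    field_simp at h1
    rw [hidx] at h1
    have h3 : (Nat.card L : ℂ) * ((Nat.card (dset L K) : ℂ) - (L.index : ℂ) * (Nat.card K : ℂ)) = 0 := by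
      linear_combination (-1 : ℂ) * h1
    rcases mul_eq_zero.1 h3 with h4 | h4
    · exact absurd h4 hL
    · linear_combination h4
  exact_mod_cast h2

end

/-- **Frobenius--Wielandt.** -/
theorem frobenius_wielandt {G : Type*} [Group G] [Finite G] {L K : Subgroup G} (hF : FW L K) :
    ∃ M : Subgroup G, M.Normal ∧ M ⊓ L = K ∧ Nat.card M = L.index * Nat.card K ∧
      (M : Set G) = dset L K := by
  classical
  have := Fintype.ofFinite G
  let I := {χ : G → ℂ // IsCharacter G χ ∧ ∀ k ∈ dset L K, χ k = χ 1}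
  let M : Subgroup G := ⨅ χ : I, Cfsg.Agent.Lib.Helper80.charKer χ.1 χ.2.1
  have hMn : M.Normal :=
    Subgroup.normal_iInf_normal fun χ => Cfsg.Agent.Lib.Helper80.charKer_normal χ.2.1
  have hDM : ∀ k ∈ dset L K, k ∈ M := by
    intro k hk
    rw [Subgroup.mem_iInf]
    intro χ
    exact χ.2.2 k hk
  have hKn : (K.subgroupOf L).Normal := by
    refine ⟨fun k hk x => ?_⟩
    rw [Subgroup.mem_subgroupOf] at hk ⊢
    exact hF.nor x x.2 _ hk
  have hML : ∀ h ∈ L, h ∈ M → h ∈ K := by
    intro h hh hM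
    by_contra h1
    have hne : (⟨h, hh⟩ : L) ∉ K.subgroupOf L := by
      rw [Subgroup.mem_subgroupOf]
      exact h1
    obtain ⟨θ, hθK, hθ⟩ := Cfsg.Agent.Lib.Helper80.exists_irr_ker_ne (K.subgroupOf L) hne
    obtain ⟨χ, hχ, hres, hker⟩ := exists_extension hF θ.1 θ.2
      (fun k hk => hθK k (Subgroup.mem_subgroupOf.2 hk))
    have h2 := (Subgroup.mem_iInf.1 hM) ⟨χ, hχ, hker⟩
    rw [Cfsg.Agent.Lib.Helper80.mem_charKer] at h2
    apply hθ
    rw [← hres, ← hres]
    exact h2
  have hMD : (M : Set G) = dset L K := by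
    ext x
    constructor
    · intro hx g hg
      have h3 : g⁻¹ * x * g ∈ M := by
        have := hMn.conj_mem x hx g⁻¹
        simpa using this
      exact hML _ hg h3
    · exact hDM x
  refine ⟨M, hMn, ?_, ?_, hMD⟩
  · apply le_antisymm
    · intro x hx
      exact hML x hx.2 hx.1
    · intro x hx
      exact ⟨hDM x (hF.le_dset hx), hF.le hx⟩
  · rw [← card_dset hF, ← hMD]
    rfl

end Cfsg.Agent.Lib.Helper76.FrobWielandt
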