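import Mathlib
import Cfsg.Agent.Lib.Helper78.IndBlock2
import Cfsg.Agent.Lib.Helper78.DefectZero
import Cfsg.Agent.Lib.Helper80.Induced
import Cfsg.Agent.Lib.Helper15.Clifford2

/-!
# Counting characters of a block over a character of a normal subgroup (helper76)
-/

set_option autoImplicit false

namespace Cfsg.Agent.Lib.Helper76

open Cfsg Cfsg.Agent.Lib.Helper78 Cfsg.Agent.Lib.Helper80 Cfsg.Agent.Lib.Helper74
open scoped ComplexConjugate

universe u

variable {G : Type u} [Group G] [Fintype G] {p : ℕ} {M : Ideal AlgInt}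

open Classical in
/-- If `p` divides the index of `N`, then `∑_{χ ∈ B} [χ_N, θ] χ(1) ≡ 0 (mod p)`. -/
theorem dvd_sum_block_over (hM : IsPModular p M) {B : Set (IrrCharacter G)} (hB : IsPBlock M B)
    (N : Subgroup G) [N.Normal] [Fintype N] (θ : IrrCharacter N) (hp : p ∣ N.index)
    (m : IrrCharacter G → ℕ)
    (hm : ∀ χ : IrrCharacter G, classInner (fun n : N => (χ : G → ℂ) n) (θ : N → ℂ) = m χ) :
    p ∣ ∑ χ : IrrCharacter G, if χ ∈ B then m χ * charDegree (χ : G → ℂ) else 0 := by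
  have hMp := pmod_isPrime hM
  set e : N → ℂ := fun x : N => blockCoeff B x with he
  have hecl : IsClassFunction N e := fun x y => blockCoeff_isClassFunction B (x : G) (y : G)
  have heloc : ∀ x, MemLocalRing M (e x) := fun x => memLocalRing_blockCoeff hMp hB _
  have h1 := blockPart_indFun_one (H := N) B θ
  rw [charDegree_indFun N (Cfsg.Agent.Lib.Helper80.isCharacter_of_irr θ.2), blockPart_apply] at h1
  have h2 : MemLocalIdeal M (((N.index * charDegree (θ : N → ℂ) : ℕ) : ℂ) *
      omega (θ : N → ℂ) e) := by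
    apply MemLocalIdeal.mul_right hMp _ (memLocalRing_omega hMp θ hecl heloc)
    rw [memLocalIdeal_natCast_iff hM]
    exact Dvd.dvd.mul_right hp _
  rw [← h1] at h2
  rw [← memLocalIdeal_natCast_iff hM]
  convert h2 using 1
  push_cast
  refine Finset.sum_congr rfl fun χ _ => ?_
  split_ifs
  · rw [Cfsg.Agent.Lib.Helper15.classInner_indFun_left N _ _ (irr_isClassFunction χ),
      Cfsg.Agent.Lib.Helper15.inner_comm_of_char (Cfsg.Agent.Lib.Helper15.irr_char θ.2)
        (Cfsg.Agent.Lib.Helper15.char_restrict (Cfsg.Agent.Lib.Helper15.irr_char χ.2) N), hm,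
      irr_one_eq]
  · rfl

/-- Clifford: the degree of `χ` over `θ` is `[χ_N, θ]` times a number depending only on `θ`. -/
theorem exists_clifford_degree (N : Subgroup G) [N.Normal] [Fintype N] (θ : IrrCharacter N) :
    ∃ U : ℕ, ∀ (χ : IrrCharacter G) (m : ℕ),
      classInner (fun n : N => (χ : G → ℂ) n) (θ : N → ℂ) = m → m ≠ 0 →
      charDegree (χ : G → ℂ) = m * U := by
  classical
  refine ⟨(Finset.univ.image (fun g : G => Cfsg.Agent.Lib.Helper15.cj N g (θ : N → ℂ))).card *
    charDegree (θ : N → ℂ), fun χ m hm hm0 => ?_⟩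
  have h0 : classInner (fun n : N => (χ : G → ℂ) n) (θ : N → ℂ) ≠ 0 := by
    rw [hm]; exact_mod_cast hm0
  have h1 := congrFun (Cfsg.Agent.Lib.Helper15.clifford_theorem N χ.2 θ.2 h0) 1
  simp only [Pi.smul_apply, Finset.sum_apply, smul_eq_mul, OneMemClass.coe_one] at h1
  have h2 : ∑ φ ∈ Finset.univ.image (fun g : G => Cfsg.Agent.Lib.Helper15.cj N g (θ : N → ℂ)), φ 1
      = ((Finset.univ.image (fun g : G => Cfsg.Agent.Lib.Helper15.cj N g (θ : N → ℂ))).card : ℂ) *
        (charDegree (θ : N → ℂ) : ℂ) := by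
    rw [Finset.sum_congr rfl (g := fun _ => (charDegree (θ : N → ℂ) : ℂ)), Finset.sum_const,
      nsmul_eq_mul]
    intro φ hφ
    obtain ⟨g, -, rfl⟩ := Finset.mem_image.1 hφ
    rw [Cfsg.Agent.Lib.Helper15.cj_apply_one, irr_one_eq]
  rw [h2, hm, irr_one_eq] at h1
  exact_mod_cast h1

end Cfsg.Agent.Lib.Helper76
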