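import Mathlib

set_option autoImplicit false

namespace Cfsg.Agent.Lib.Helper76

open Polynomial

/-- If a sum of `n` roots of unity of `p`-power order vanishes then `p ∣ n`. -/
theorem dvd_of_sum_roots_eq_zero (p : ℕ) [Fact p.Prime] (j n : ℕ) (μ : Fin n → ℂ)
    (h1 : ∀ i, μ i ^ (p ^ j) = 1) (h0 : ∑ i, μ i = 0) : p ∣ n := by
  rcases j with _ | j
  · have : ∀ i, μ i = 1 := by intro i; simpa using h1 i
    simp [this] at h0
    simp [h0]
  · have hpos : 0 < p ^ (j+1) := pow_pos (Fact.out : p.Prime).pos _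
    have hζ := Complex.isPrimitiveRoot_exp (p ^ (j+1)) hpos.ne'
    set ζ := Complex.exp (2 * Real.pi * Complex.I / ((p ^ (j+1) : ℕ) : ℂ)) with hζdef
    have hex : ∀ i, ∃ a : ℕ, ζ ^ a = μ i := by
      intro i
      obtain ⟨a, _, ha⟩ := hζ.eq_pow_of_pow_eq_one (h1 i)
      exact ⟨a, ha⟩
    choose a ha using hex
    let Q : ℤ[X] := ∑ i, X ^ (a i)
    have hQ : aeval ζ Q = 0 := by
      simp [Q, ha, h0]
    have hmin : cyclotomic (p ^ (j+1)) ℤ = minpoly ℤ ζ := cyclotomic_eq_minpoly hζ hpos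
    have hdvd : cyclotomic (p ^ (j+1)) ℤ ∣ Q := by
      rw [hmin]
      exact minpoly.isIntegrallyClosed_dvd (hζ.isIntegral hpos) hQ
    obtain ⟨R, hR⟩ := hdvd
    have he : eval 1 Q = (n : ℤ) := by
      simp [Q, eval_finsetSum]
    rw [hR, eval_mul, eval_one_cyclotomic_prime_pow] at he
    have : (p : ℤ) ∣ (n : ℤ) := ⟨_, he.symm⟩
    exact_mod_cast this

end Cfsg.Agent.Lib.Helper76
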