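import Mathlib
import Cfsg.Prelude.Def_Blocks
import Cfsg.Agent.Lib.Helper74.CharBasic
import Cfsg.Agent.Lib.Helper15.Clifford

/-!
# Degree bound from the orbit of a constituent under a subgroup
-/

set_option autoImplicit false

namespace Cfsg.Agent.Lib.Helper76

open Cfsg Cfsg.Agent.Lib.Helper15 Cfsg.Agent.Lib.Helper74
open scoped ComplexConjugate

theorem card_mul_degree_le {G : Type*} [Group G] [Finite G] (K : Subgroup G) [K.Normal]
    [Fintype K] {χ : G → ℂ} (hχ : IsCharacter G χ) {θ : K → ℂ} (hθ : IsIrrCharacter K θ)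
    (h0 : classInner (fun k : K => χ k) θ ≠ 0) (P T : Subgroup G)
    (hT : ∀ x, x ∈ T ↔ x ∈ P ∧ cj K x θ = θ) :
    Nat.card P * charDegree θ ≤ Nat.card T * charDegree χ := by
  classical
  let _ : Fintype P := Fintype.ofFinite _
  let _ : Fintype T := Fintype.ofFinite _
  let f : P → IrrCharacter K := fun x => ⟨cj K (x : G) θ, irr_cj K _ hθ⟩
  set O : Finset (IrrCharacter K) := Finset.univ.image f with hO
  have h1 : Nat.card P ≤ Nat.card T * O.card := by
    rw [Nat.card_eq_fintype_card, ← Finset.card_univ]
    apply Finset.card_le_mul_card_image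
    intro a ha
    obtain ⟨x0, -, rfl⟩ := Finset.mem_image.1 ha
    rw [Nat.card_eq_fintype_card, ← Finset.card_univ]
    have hmem : ∀ x ∈ Finset.univ.filter (fun x : P => f x = f x0), (x : G) * (x0 : G)⁻¹ ∈ T := by
      intro x hx
      have hx' : cj K (x : G) θ = cj K (x0 : G) θ :=
        congrArg Subtype.val (Finset.mem_filter.1 hx).2
      rw [hT]
      refine ⟨P.mul_mem x.2 (P.inv_mem x0.2), ?_⟩
      rw [← cj_cj, hx', cj_inv_cj]
    apply Finset.card_le_card_of_injOn
      (fun x : P => if h : (x : G) * (x0 : G)⁻¹ ∈ T then (⟨_, h⟩ : T) else 1)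
    · intro x _
      exact Finset.mem_univ _
    · intro x hx y hy hxy
      simp only [Finset.coe_filter, Set.mem_setOf_eq] at hx hy
      have hx1 := hmem x (Finset.mem_filter.2 hx)
      have hy1 := hmem y (Finset.mem_filter.2 hy)
      simp only [dif_pos hx1, dif_pos hy1] at hxy
      have := congrArg Subtype.val hxy
      simp only [mul_left_inj] at this
      exact Subtype.ext this
  obtain ⟨m, hm⟩ := IsCharacter.exists_mult (IsCharacter.restrict hχ K)
  have hmv : ∀ ψ : IrrCharacter K, classInner (fun k : K => χ k) (ψ : K → ℂ) = m ψ := by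
    intro ψ
    have : (fun k : K => χ k) = ∑ ψ : IrrCharacter K, (m ψ : ℂ) • (ψ : K → ℂ) := hm
    rw [this, classInner_sum_irr]
  have h2 : charDegree χ = ∑ ψ : IrrCharacter K, m ψ * charDegree (ψ : K → ℂ) := by
    have e := congrFun hm 1
    simp only [Finset.sum_apply, Pi.smul_apply, smul_eq_mul] at e
    have e' : χ 1 = ∑ ψ : IrrCharacter K, (m ψ : ℂ) * (ψ : K → ℂ) 1 := e
    rw [← IsCharacter.charDegree_eq hχ] at e'
    have e2 : ∀ ψ : IrrCharacter K, (ψ : K → ℂ) 1 = (charDegree (ψ : K → ℂ) : ℂ) :=
      fun ψ => (IsCharacter.charDegree_eq (IrrCharacter.isCharacter ψ)).symm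
    simp only [e2] at e'
    exact_mod_cast e'
  have h3 : O.card * charDegree θ ≤ charDegree χ := by
    rw [h2]
    calc O.card * charDegree θ = ∑ ψ ∈ O, charDegree θ := by
          rw [Finset.sum_const, smul_eq_mul]
      _ ≤ ∑ ψ ∈ O, m ψ * charDegree (ψ : K → ℂ) := by
          apply Finset.sum_le_sum
          intro ψ hψ
          obtain ⟨x, -, rfl⟩ := Finset.mem_image.1 hψ
          have hd : charDegree ((f x : IrrCharacter K) : K → ℂ) = charDegree θ := by
            unfold charDegree
            change ⌊(cj K (x : G) θ 1).re⌋₊ = _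
            rw [cj_apply_one]
          have hmx : m (f x) ≠ 0 := by
            intro h
            apply h0
            have := hmv (f x)
            rw [h] at this
            change classInner (fun k : K => χ k) (cj K (x : G) θ) = _ at this
            rw [classInner_restrict_cj K _ (char_cf hχ)] at this
            simpa using this
          rw [hd]
          exact Nat.le_mul_of_pos_left _ (Nat.pos_of_ne_zero hmx)
      _ ≤ ∑ ψ : IrrCharacter K, m ψ * charDegree (ψ : K → ℂ) :=
          Finset.sum_le_sum_of_subset (Finset.subset_univ _)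
  calc Nat.card P * charDegree θ ≤ Nat.card T * O.card * charDegree θ :=
        Nat.mul_le_mul_right _ h1
    _ = Nat.card T * (O.card * charDegree θ) := by ring
    _ ≤ Nat.card T * charDegree χ := Nat.mul_le_mul_left _ h3

end Cfsg.Agent.Lib.Helper76
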