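import Mathlib
import Cfsg.Prelude.Def_Local
import Cfsg.Agent.Lib.Lead.Cores
import Cfsg.Agent.Lib.Helper76.PSolvable
import Cfsg.Agent.S0058

/-!
# Group theory of `p`-solvable groups with a TI Sylow `p`-subgroup
-/

set_option autoImplicit false
open scoped Pointwise

namespace Cfsg.Agent.Lib.Helper76

open Cfsg Cfsg.Agent.Lib.Lead

variable {G : Type*} [Group G] [Finite G] {p : ℕ} [Fact p.Prime] (P : Sylow p G)

theorem ti_mem_normalizer
    (hTI : ∀ g : G, g ∉ Subgroup.normalizer ((P : Subgroup G) : Set G) →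
      (P : Subgroup G) ⊓ (MulAut.conj g • (P : Subgroup G)) = ⊥)
    {x c : G} (hx : x ∈ (P : Subgroup G)) (hx1 : x ≠ 1) (hc : c * x * c⁻¹ ∈ (P : Subgroup G)) :
    c ∈ Subgroup.normalizer ((P : Subgroup G) : Set G) := by
  by_contra h
  have h1 := hTI c h
  have h2 : c * x * c⁻¹ ∈ (P : Subgroup G) ⊓ (MulAut.conj c • (P : Subgroup G)) := by
    refine Subgroup.mem_inf.mpr ⟨hc, ?_⟩
    rw [Subgroup.mem_pointwise_smul_iff_inv_smul_mem]
    simpa [MulAut.smul_def, mul_assoc] using hx
  rw [h1, Subgroup.mem_bot] at h2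
  apply hx1
  simpa using h2

theorem sylow_inf_pPrimeCore : (P : Subgroup G) ⊓ pPrimeCore p G = ⊥ := by
  apply disjoint_iff.mp
  apply Subgroup.disjoint_of_coprime_natCard
  obtain ⟨n, hn⟩ := (IsPGroup.iff_card.mp P.2)
  rw [hn]
  exact Nat.Coprime.pow_left n (card_pPrimeCore_coprime p).symm

theorem ti_centralizes
    (hTI : ∀ g : G, g ∉ Subgroup.normalizer ((P : Subgroup G) : Set G) →
      (P : Subgroup G) ⊓ (MulAut.conj g • (P : Subgroup G)) = ⊥)
    {x c : G} (hx : x ∈ (P : Subgroup G)) (hx1 : x ≠ 1) (hc : c ∈ pPrimeCore p G)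
    (hcomm : c * x = x * c) : ∀ y ∈ (P : Subgroup G), c * y = y * c := by
  intro y hy
  have hn : c ∈ Subgroup.normalizer ((P : Subgroup G) : Set G) := by
    apply ti_mem_normalizer P hTI hx hx1
    rw [hcomm, mul_inv_cancel_right]
    exact hx
  have h1 : c * y * c⁻¹ ∈ (P : Subgroup G) := (Subgroup.mem_normalizer_iff.mp hn y).mp hy
  have h2 : c * y * c⁻¹ * y⁻¹ ∈ (P : Subgroup G) ⊓ pPrimeCore p G := by
    refine Subgroup.mem_inf.mpr ⟨Subgroup.mul_mem _ h1 (Subgroup.inv_mem _ hy), ?_⟩
    have h3 : y * c⁻¹ * y⁻¹ ∈ pPrimeCore p G :=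
      (inferInstance : (pPrimeCore p G).Normal).conj_mem _ (Subgroup.inv_mem _ hc) y
    have := Subgroup.mul_mem _ hc h3
    simpa [mul_assoc] using this
  rw [sylow_inf_pPrimeCore, Subgroup.mem_bot] at h2
  have h4 : c * y = y * c := by
    have := congrArg (fun t => t * y * c) h2
    simpa [mul_assoc] using this
  exact h4

theorem ti_not_centralizes (hsolv : IsPSolvable p G)
    (hTI : ∀ g : G, g ∉ Subgroup.normalizer ((P : Subgroup G) : Set G) →
      (P : Subgroup G) ⊓ (MulAut.conj g • (P : Subgroup G)) = ⊥)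
    (hN : ¬ (P : Subgroup G).Normal) :
    ¬ ∀ y ∈ (P : Subgroup G), ∀ k ∈ pPrimeCore p G, k * y = y * k := by
  intro hcent
  set K := pPrimeCore p G with hK
  have hcore : pPrimeCore p (G ⧸ K) = ⊥ := pPrimeCore_quotient_pPrimeCore p G
  have hs : IsPSolvable p (G ⧸ K) := isPSolvable_quotient K hsolv
  have hHH := centralizer_pCore_le hs hcore
  have hsurj : Function.Surjective (QuotientGroup.mk' K) := QuotientGroup.mk'_surjective K
  have hle : pCore p (G ⧸ K) ≤ (P : Subgroup G).map (QuotientGroup.mk' K) := by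
    have := pCore_le_sylow (P.mapSurjective hsurj)
    rwa [Sylow.coe_mapSurjective] at this
  by_cases hbot : pCore p (G ⧸ K) = ⊥
  · rw [hbot] at hHH
    have htop : (⊤ : Subgroup (G ⧸ K)) ≤ ⊥ := by
      refine le_trans ?_ hHH
      intro x _
      rw [Subgroup.mem_centralizer_iff]
      intro y hy
      have : y = 1 := by simpa using hy
      rw [this]; simp
    have hKtop : K = ⊤ := by
      rw [eq_top_iff]
      intro g _
      have : (QuotientGroup.mk' K g) ∈ (⊥ : Subgroup (G ⧸ K)) := htop trivial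
      rw [Subgroup.mem_bot] at this
      exact (QuotientGroup.eq_one_iff g).mp this
    have hPbot : (P : Subgroup G) = ⊥ := by
      have := sylow_inf_pPrimeCore P
      rwa [← hK, hKtop, inf_top_eq] at this
    apply hN
    rw [hPbot]
    infer_instance
  · obtain ⟨q, hq, hq1⟩ : ∃ q ∈ pCore p (G ⧸ K), q ≠ 1 := by
      obtain ⟨a, ha⟩ := (Subgroup.ne_bot_iff_exists_ne_one).mp hbot
      exact ⟨(a : G ⧸ K), a.2, fun h => ha (Subtype.ext h)⟩
    obtain ⟨z, hz, hzq⟩ := hle hq
    have hz1 : z ≠ 1 := by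
      rintro rfl
      apply hq1
      rw [← hzq, map_one]
    apply hN
    rw [← Subgroup.normalizer_eq_top_iff, eq_top_iff]
    intro g _
    apply ti_mem_normalizer P hTI hz hz1
    have h1 : QuotientGroup.mk' K (g * z * g⁻¹) ∈ pCore p (G ⧸ K) := by
      rw [map_mul, map_mul, map_inv, hzq]
      exact (inferInstance : (pCore p (G ⧸ K)).Normal).conj_mem _ hq _
    obtain ⟨y, hy, hyq⟩ := hle h1
    have hk : y⁻¹ * (g * z * g⁻¹) ∈ K := by
      rw [← QuotientGroup.eq]
      exact hyq
    set k := y⁻¹ * (g * z * g⁻¹) with hkdef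
    have hyk : g * z * g⁻¹ = y * k := by rw [hkdef, mul_inv_cancel_left]
    have hcomm : Commute y k := (hcent y hy k hk).symm
    have hpz : z ^ Nat.card (P : Subgroup G) = 1 := by
      have := pow_card_eq_one' (x := (⟨z, hz⟩ : (P : Subgroup G)))
      exact congrArg Subtype.val this
    have hpy : y ^ Nat.card (P : Subgroup G) = 1 := by
      have := pow_card_eq_one' (x := (⟨y, hy⟩ : (P : Subgroup G)))
      exact congrArg Subtype.val this
    have hpk : k ^ Nat.card (P : Subgroup G) = 1 := by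
      have h2 : (g * z * g⁻¹) ^ Nat.card (P : Subgroup G) = 1 := by
        rw [conj_pow, hpz]; simp
      rw [hyk, hcomm.mul_pow, hpy, one_mul] at h2
      exact h2
    have hkk : k ^ Nat.card K = 1 := by
      have := pow_card_eq_one' (x := (⟨k, hk⟩ : K))
      exact congrArg Subtype.val this
    have hcop : Nat.Coprime (Nat.card (P : Subgroup G)) (Nat.card K) := by
      obtain ⟨n, hn⟩ := (IsPGroup.iff_card.mp P.2)
      rw [hn]
      exact Nat.Coprime.pow_left n (card_pPrimeCore_coprime p).symm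
    have hk1 : k = 1 := by
      have h3 : orderOf k ∣ Nat.gcd (Nat.card (P : Subgroup G)) (Nat.card K) :=
        Nat.dvd_gcd (orderOf_dvd_of_pow_eq_one hpk) (orderOf_dvd_of_pow_eq_one hkk)
      rw [hcop, Nat.dvd_one, orderOf_eq_one_iff] at h3
      exact h3
    rw [hyk, hk1, mul_one]
    exact hy

/-- In a finite cyclic group two subgroups of the same order coincide. -/
theorem cyc_eq_of_card_eq {E : Type*} [Group E] [Finite E] [IsCyclic E]
    {A B : Subgroup E} (h : Nat.card A = Nat.card B) : A = B := by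
  classical
  have : Fintype E := Fintype.ofFinite E
  set n := Nat.card A with hn
  have hn0 : 0 < n := Nat.card_pos
  have key : ∀ C : Subgroup E, Nat.card C = n →
      (C : Set E) = ((Finset.univ.filter fun a : E => a ^ n = 1 : Finset E) : Set E) := by
    intro C hC
    apply Set.eq_of_subset_of_ncard_le
    · intro x hx
      simp only [Finset.coe_filter, Finset.mem_univ, true_and, Set.mem_ofPred_eq]
      have := pow_card_eq_one' (x := (⟨x, hx⟩ : C))
      rw [hC] at this
      exact congrArg Subtype.val this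
    · rw [Set.ncard_coe_finset]
      have h1 := IsCyclic.card_pow_eq_one_le (α := E) hn0
      have h2 : (C : Set E).ncard = n := by rw [← hC]; rfl
      rw [h2]
      exact h1
    · exact Set.toFinite _
  apply SetLike.coe_injective
  rw [key A rfl, key B h.symm]

theorem exists_orderOf_eq_of_isPGroup {T : Subgroup G} (hT : IsPGroup p T) (hne : T ≠ ⊥) :
    ∃ y ∈ T, orderOf y = p := by
  have hd : p ∣ Nat.card T := by
    rcases hT.card_eq_or_dvd with h | h
    · exact absurd (Subgroup.card_eq_one.mp h) hne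
    · exact h
  obtain ⟨y, hy⟩ := exists_prime_orderOf_dvd_card' p hd
  exact ⟨y, y.2, by rwa [Subgroup.orderOf_coe]⟩

theorem ti_exists_min
    (hTI : ∀ g : G, g ∉ Subgroup.normalizer ((P : Subgroup G) : Set G) →
      (P : Subgroup G) ⊓ (MulAut.conj g • (P : Subgroup G)) = ⊥)
    (hnc : ¬ ∀ y ∈ (P : Subgroup G), ∀ k ∈ pPrimeCore p G, k * y = y * k) :
    ∃ z ∈ (P : Subgroup G), z ≠ 1 ∧ ∀ T : Subgroup G, T ≤ P → T ≠ ⊥ → z ∈ T := by
  have hPne : (P : Subgroup G) ≠ ⊥ := by
    intro h
    apply hnc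
    intro y hy k _
    rw [h, Subgroup.mem_bot] at hy
    rw [hy]; simp
  have hnt : Nontrivial (P : Subgroup G) := (Subgroup.nontrivial_iff_ne_bot _).mpr hPne
  have hcn : Nontrivial (Subgroup.center (P : Subgroup G)) := P.2.center_nontrivial
  have hcp : IsPGroup p (Subgroup.center (P : Subgroup G)) := P.2.to_subgroup _
  obtain ⟨z', hz'c, hz'o⟩ := exists_orderOf_eq_of_isPGroup hcp
    ((Subgroup.nontrivial_iff_ne_bot _).mp hcn)
  have hzo : orderOf (z' : G) = p := by rwa [Subgroup.orderOf_coe]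
  have hzcomm : ∀ y ∈ (P : Subgroup G), y * (z' : G) = (z' : G) * y := by
    intro y hy
    have := Subgroup.mem_center_iff.mp hz'c ⟨y, hy⟩
    exact congrArg Subtype.val this
  have hp : p.Prime := Fact.out
  refine ⟨z', z'.2, ?_, ?_⟩
  · intro h
    rw [h, orderOf_one] at hzo
    exact hp.one_lt.ne hzo
  intro T hTP hTne
  obtain ⟨y, hyT, hyo⟩ := exists_orderOf_eq_of_isPGroup (P.2.to_le hTP) hTne
  by_contra hzT
  set z : G := (z' : G) with hz
  set A : Subgroup G := Subgroup.closure {y, z} with hA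
  have hyP : y ∈ (P : Subgroup G) := hTP hyT
  have hAP : A ≤ P := by
    rw [hA, Subgroup.closure_le]
    intro a ha
    rcases ha with rfl | rfl
    · exact hyP
    · exact z'.2
  have hAc : IsMulCommutative A := by
    apply Subgroup.isMulCommutative_closure
    intro a ha b hb
    rcases ha with rfl | rfl <;> rcases hb with rfl | rfl
    · rfl
    · exact hzcomm _ hyP
    · exact (hzcomm _ hyP).symm
    · rfl
  have hyA : y ∈ A := Subgroup.subset_closure (by simp)
  have hzA : z ∈ A := Subgroup.subset_closure (by simp)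
  have hAnc : ¬ IsCyclic A := by
    intro hcyc
    have h1 : Subgroup.zpowers (⟨y, hyA⟩ : A) = Subgroup.zpowers (⟨z, hzA⟩ : A) := by
      apply cyc_eq_of_card_eq
      rw [Nat.card_zpowers, Nat.card_zpowers, ← Subgroup.orderOf_coe, ← Subgroup.orderOf_coe]
      exact hyo.trans hzo.symm
    have h2 : (⟨z, hzA⟩ : A) ∈ Subgroup.zpowers (⟨y, hyA⟩ : A) := by
      rw [h1]; exact Subgroup.mem_zpowers _
    obtain ⟨i, hi⟩ := Subgroup.mem_zpowers_iff.mp h2
    have h3 : y ^ i = z := by
      have := congrArg Subtype.val hi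
      simpa using this
    apply hzT
    rw [← h3]
    exact T.zpow_mem hyT i
  have hcop : (Nat.card A).Coprime (Nat.card (pPrimeCore p G)) := by
    obtain ⟨n, hn⟩ := (IsPGroup.iff_card.mp (P.2.to_le hAP))
    rw [hn]
    exact Nat.Coprime.pow_left n (card_pPrimeCore_coprime p).symm
  have hnorm : A ≤ Subgroup.normalizer ((pPrimeCore p G : Subgroup G) : Set G) := by
    rw [Subgroup.normalizer_eq_top]
    exact le_top
  have hgen := Cfsg.Agent.S0058.result A (pPrimeCore p G) hAnc hnorm hcop
  apply hnc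
  have hle : pPrimeCore p G ≤ Subgroup.centralizer ((P : Subgroup G) : Set G) := by
    rw [← hgen]
    apply iSup₂_le
    intro a ha c hc
    obtain ⟨hcK, hcc⟩ := Subgroup.mem_inf.mp hc
    rw [Subgroup.mem_centralizer_iff]
    intro y' hy'
    have hca : c * a = a * c := by
      have := Subgroup.mem_centralizer_iff.mp hcc a (by simp)
      exact this.symm
    exact (ti_centralizes P hTI (hAP ha.1) ha.2 hcK hca y' hy').symm
  intro y' hy' k hk
  exact (Subgroup.mem_centralizer_iff.mp (hle hk) y' hy').symm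

end Cfsg.Agent.Lib.Helper76
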