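import Cfsg.Agent.Lib.Helper76.TWa
import Cfsg.Agent.Lib.Helper1.Tools

/-!
# Thompson–Wielandt, part D: the index of the second core
-/

set_option autoImplicit false

namespace Cfsg.Agent.Lib.Helper76.TW

open Cfsg Cfsg.Agent.Lib.Helper62
open scoped Nat

theorem card_stabilizer_perm {α : Type*} [Finite α] (a : α) :
    Nat.card ↥(MulAction.stabilizer (Equiv.Perm α) a) = (Nat.card α - 1)! := by
  classical
  have h1 := Subgroup.card_mul_index (MulAction.stabilizer (Equiv.Perm α) a)
  rw [MulAction.index_stabilizer_of_transitive, Nat.card_perm] at h1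
  have hpos : 0 < Nat.card α := Nat.card_pos_iff.mpr ⟨⟨a⟩, inferInstance⟩
  have h2 : (Nat.card α)! = Nat.card α * (Nat.card α - 1)! := (Nat.mul_factorial_pred hpos.ne').symm
  rw [h2, mul_comm] at h1
  exact Nat.eq_of_mul_eq_mul_left hpos h1

theorem relIndex_normalCore_dvd {X : Type*} [Group X] [Finite X] (D H : Subgroup X) (hHD : H ≤ D) :
    D.normalCore.relIndex H ∣ (D.index - 1)! := by
  rw [Subgroup.normalCore_eq_ker, Subgroup.relIndex_ker]
  have hle : H.map (MulAction.toPermHom X (X ⧸ D)) ≤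
      MulAction.stabilizer (Equiv.Perm (X ⧸ D)) (QuotientGroup.mk 1 : X ⧸ D) := by
    rintro _ ⟨h, hh, rfl⟩
    rw [MulAction.mem_stabilizer_iff]
    change h • (QuotientGroup.mk 1 : X ⧸ D) = _
    rw [MulAction.Quotient.smul_mk, QuotientGroup.eq]
    simpa using D.inv_mem (hHD hh)
  have hc := card_stabilizer_perm (QuotientGroup.mk 1 : X ⧸ D)
  rw [← Subgroup.index_eq_card] at hc
  rw [← hc]
  exact Subgroup.card_dvd_of_le hle

variable {G : Type*} [Group G]

theorem relIndex_rcore_dvd [Finite G] {M D H : Subgroup G} (hDM : D ≤ M) (hHD : H ≤ D) :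
    (rcore M D).relIndex H ∣ (D.relIndex M - 1)! := by
  have h1 := relIndex_normalCore_dvd (D.subgroupOf M) (H.subgroupOf M)
    (Subgroup.subgroupOf_mono _ hHD)
  have h2 : (rcore M D).relIndex H = (D.subgroupOf M).normalCore.relIndex (H.subgroupOf M) := by
    unfold rcore
    rw [← Subgroup.relIndex_map_map_of_injective _ _ M.subtype_injective,
      Subgroup.map_subgroupOf_eq_of_le (hHD.trans hDM)]
  rw [h2]
  exact h1

theorem relIndex_rcore_dvd' [Finite G] {M D : Subgroup G} :
    (rcore M D).relIndex M ∣ (D.relIndex M)! := by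
  have h : (D.subgroupOf M).normalCore.index ∣ ((D.subgroupOf M).index)! := by
    rw [Subgroup.normalCore_eq_ker, Subgroup.index_ker, Subgroup.index_eq_card, ← Nat.card_perm]
    exact Subgroup.card_subgroup_dvd_card _
  have h2 : (rcore M D).relIndex M = (D.subgroupOf M).normalCore.index := by
    unfold rcore Subgroup.relIndex
    rw [← Subgroup.comap_subtype, Subgroup.comap_map_eq_self_of_injective M.subtype_injective]
  rw [h2]
  exact h

/-- the elements `x` with `k⁻¹ x k ∈ B` -/
abbrev cj (k : G) (B : Subgroup G) : Subgroup G := B.comap (MulAut.conj k⁻¹).toMonoidHom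

theorem mem_cj {k x : G} {B : Subgroup G} : x ∈ cj k B ↔ k⁻¹ * x * k ∈ B := by
  simp [cj, Subgroup.mem_comap]

theorem relIndex_c2_dvd [Finite G] {M M' : Subgroup G} (hcard : Nat.card ↥M = Nat.card ↥M')
    (d : ℕ) (hd : (M ⊓ M').relIndex M = d) :
    (c2 M M').relIndex M ∣ d ! * ((d - 1)!) ^ d := by
  classical
  set D := M ⊓ M' with hD
  set A₁ := c1 M M' with hA₁
  set B₁ := c1 M' M with hB₁
  have hd' : (M' ⊓ M).relIndex M' = d := by
    have h1 := Cfsg.Agent.Lib.Helper1.relIndex_mul_card (inf_le_left : M ⊓ M' ≤ M)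
    have h2 := Cfsg.Agent.Lib.Helper1.relIndex_mul_card (inf_le_left : M' ⊓ M ≤ M')
    rw [inf_comm M' M] at h2 ⊢
    rw [← hD] at h1 h2 ⊢
    rw [hd, hcard, ← h2] at h1
    exact (Nat.eq_of_mul_eq_mul_right Nat.card_pos h1).symm
  let T := ↥M ⧸ D.subgroupOf M
  have : Fintype T := Fintype.ofFinite T
  have hT : Fintype.card T = d := by
    rw [← Nat.card_eq_fintype_card, ← Subgroup.index_eq_card]; exact hd
  let AS : Finset T → Subgroup G := fun S => A₁ ⊓ ⨅ q ∈ S, cj ((q.out : ↥M) : G) B₁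
  have hstep : ∀ S : Finset T, (AS S).relIndex A₁ ∣ ((d - 1)!) ^ S.card := by
    intro S
    induction S using Finset.induction_on with
    | empty =>
      simp [AS]
    | insert q S hq ih =>
      have h1 : AS (insert q S) = cj ((q.out : ↥M) : G) B₁ ⊓ AS S := by
        simp only [AS, Finset.iInf_insert]
        rw [inf_left_comm]
      have hle : AS S ≤ A₁ := inf_le_left
      rw [Finset.card_insert_of_notMem hq, pow_succ, h1,
        ← Subgroup.relIndex_mul_relIndex _ _ _ (inf_le_right) hle, mul_comm]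
      refine mul_dvd_mul ih ?_
      rw [Subgroup.inf_relIndex_right, Subgroup.relIndex_comap]
      have h2 : (AS S).map (MulAut.conj ((q.out : ↥M) : G)⁻¹).toMonoidHom ≤ M' ⊓ M := by
        rintro _ ⟨x, hx, rfl⟩
        have hxA : x ∈ A₁ := hle hx
        have hm : ((q.out : ↥M) : G)⁻¹ ∈ M := M.inv_mem (q.out : ↥M).2
        have := (Subgroup.mem_normalizer_iff.mp (le_normalizer_c1 M M' hm) x).mp hxA
        exact ⟨c1_le_right M M' this, c1_le_left M M' this⟩
      have h3 := relIndex_rcore_dvd (M := M') (D := M' ⊓ M) inf_le_left h2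
      rw [hd'] at h3
      exact h3
  have huniv : AS Finset.univ = c2 M M' := by
    apply le_antisymm
    · intro x hx
      have hxA : x ∈ A₁ := hx.1
      refine mem_rcore.mpr ⟨c1_le_left M M' hxA, fun h hh => ⟨?_, ?_⟩⟩
      · exact (Subgroup.mem_normalizer_iff.mp (le_normalizer_c1 M M' hh) x).mp hxA
      · -- k = h⁻¹
        obtain ⟨δ, hδ⟩ := QuotientGroup.mk_out_eq_mul (D.subgroupOf M) (⟨h, hh⟩⁻¹ : ↥M)
        have hq : x ∈ cj (((QuotientGroup.mk (⟨h, hh⟩⁻¹ : ↥M) : T).out : ↥M) : G) B₁ := by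
          have : x ∈ ⨅ q ∈ (Finset.univ : Finset T), cj ((q.out : ↥M) : G) B₁ := hx.2
          simp only [Subgroup.mem_iInf] at this
          exact this _ (Finset.mem_univ _)
        rw [mem_cj, hδ] at hq
        have hδD : ((δ : ↥M) : G) ∈ D := Subgroup.mem_subgroupOf.mp δ.2
        have hδn := le_normalizer_c1 M' M hδD.2
        have := (Subgroup.mem_normalizer_iff.mp hδn _).mp hq
        have e : ((δ : ↥M) : G) * ((((⟨h, hh⟩⁻¹ : ↥M) * (δ : ↥M) : ↥M) : G)⁻¹ * x *
            (((⟨h, hh⟩⁻¹ : ↥M) * (δ : ↥M) : ↥M) : G)) * ((δ : ↥M) : G)⁻¹ = h * x * h⁻¹ := by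
          simp only [Subgroup.coe_mul, Subgroup.coe_inv]
          group
        rwa [e] at this
    · intro x hx
      obtain ⟨hxM, hx2⟩ := mem_rcore.mp hx
      refine ⟨c2_le_c1 M M' hx, ?_⟩
      show x ∈ ⨅ q ∈ (Finset.univ : Finset T), cj ((q.out : ↥M) : G) B₁
      simp only [Subgroup.mem_iInf]
      intro q _
      rw [mem_cj]
      have := (hx2 ((q.out : ↥M) : G)⁻¹ (M.inv_mem (q.out : ↥M).2)).2
      simpa using this
  have h1 := hstep Finset.univ
  rw [huniv, Finset.card_univ, hT] at h1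
  rw [← Subgroup.relIndex_mul_relIndex _ _ _ (c2_le_c1 M M') (c1_le_left M M'), mul_comm]
  refine mul_dvd_mul ?_ h1
  have := relIndex_rcore_dvd' (M := M) (D := M ⊓ M')
  rw [← hD, hd] at this
  exact this

end Cfsg.Agent.Lib.Helper76.TW
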