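import Cfsg.Agent.Lib.Helper76.TWc
import Cfsg.Agent.Lib.Helper76.TWd

/-!
# Thompson–Wielandt, part E: primitive permutation groups
-/

set_option autoImplicit false

namespace Cfsg.Agent.Lib.Helper76.TW

open Cfsg Cfsg.Agent.Lib.Helper62 Cfsg.Agent.Lib.Helper31
open scoped Nat

variable {G Ω : Type*} [Group G] [MulAction G Ω]

theorem relIndex_stabilizer (a b : Ω) :
    (MulAction.stabilizer G a ⊓ MulAction.stabilizer G b).relIndex (MulAction.stabilizer G a) =
      Nat.card (MulAction.orbit (MulAction.stabilizer G a) b) := by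
  rw [Subgroup.inf_relIndex_left, Nat.card_coe_set_eq, ← MulAction.index_stabilizer]
  rfl

theorem pair_stabilizer [FaithfulSMul G Ω] (hprim : MulAction.IsPreprimitive G Ω) (a b : Ω)
    (h2 : 2 ≤ Nat.card (MulAction.orbit (MulAction.stabilizer G a) b)) :
    Pair (MulAction.stabilizer G a) (MulAction.stabilizer G b) := by
  have hne : MulAction.stabilizer G a ≠ MulAction.stabilizer G b := by
    intro h
    have h1 : MulAction.orbit (MulAction.stabilizer G a) b = {b} := by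
      ext x
      constructor
      · rintro ⟨g, rfl⟩
        have : (g : G) ∈ MulAction.stabilizer G b := h ▸ g.2
        exact MulAction.mem_stabilizer_iff.mp this
      · rintro rfl
        exact MulAction.mem_orbit_self _
    rw [h1] at h2
    simp at h2
  have hab : a ≠ b := fun h => hne (by rw [h])
  have : Nontrivial Ω := ⟨⟨a, b, hab⟩⟩
  have hpt : MulAction.IsPretransitive G Ω := hprim.toIsPretransitive
  obtain ⟨g, hg⟩ := MulAction.exists_smul_eq G a b
  refine Pair.mk' ((MulAction.isCoatom_stabilizer_iff_preprimitive G a).mpr hprim) g ?_ hne ?_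
  · rw [← hg, MulAction.stabilizer_smul_eq_stabilizer_map_conj]
  · rw [eq_bot_iff]
    intro x hx
    rw [Subgroup.mem_bot]
    apply FaithfulSMul.eq_of_smul_eq_smul (α := Ω)
    intro ω
    obtain ⟨k, hk⟩ := MulAction.exists_smul_eq G a ω
    have := MulAction.mem_stabilizer_iff.mp (hx k⁻¹)
    rw [one_smul, ← hk]
    have h3 : k • ((k⁻¹ * x * k⁻¹⁻¹) • a) = k • a := by rw [this]
    rw [smul_smul] at h3
    rw [smul_smul]
    have e : k * (k⁻¹ * x * k⁻¹⁻¹) = x * k := by group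
    rwa [e] at h3

theorem Pair.card_eq {G : Type*} [Group G] {M₁ M₂ : Subgroup G} (h : Pair M₁ M₂) :
    Nat.card ↥M₁ = Nat.card ↥M₂ := by
  obtain ⟨g, hg⟩ := h.conj
  rw [hg, Subgroup.card_map_of_injective (MulAut.conj g).injective]

theorem Pair.relIndex_eq {G : Type*} [Group G] [Finite G] {M₁ M₂ : Subgroup G} (h : Pair M₁ M₂) :
    (M₂ ⊓ M₁).relIndex M₂ = (M₁ ⊓ M₂).relIndex M₁ := by
  have h1 := Cfsg.Agent.Lib.Helper1.relIndex_mul_card (inf_le_left : M₁ ⊓ M₂ ≤ M₁)
  have h2 := Cfsg.Agent.Lib.Helper1.relIndex_mul_card (inf_le_left : M₂ ⊓ M₁ ≤ M₂)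
  rw [inf_comm M₂ M₁] at h2 ⊢
  rw [h.card_eq, ← h2] at h1
  exact (Nat.eq_of_mul_eq_mul_right Nat.card_pos h1).symm

theorem Pair.card_dvd {G : Type*} [Group G] [Finite G] {M₁ M₂ : Subgroup G} (h : Pair M₁ M₂)
    (d : ℕ) (hd : (M₁ ⊓ M₂).relIndex M₁ = d) (h0 : c2 M₁ M₂ = ⊥ ∨ c2 M₂ M₁ = ⊥) :
    Nat.card ↥M₁ ∣ d ! * ((d - 1)!) ^ d := by
  rcases h0 with h0 | h0
  · have := relIndex_c2_dvd h.card_eq d hd
    rwa [h0, Subgroup.relIndex_bot_left] at this
  · have := relIndex_c2_dvd h.card_eq.symm d (h.relIndex_eq.trans hd)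
    rwa [h0, Subgroup.relIndex_bot_left, ← h.card_eq] at this

end Cfsg.Agent.Lib.Helper76.TW
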