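import Mathlib
import Cfsg.Prelude.Def_Blocks
import Cfsg.Agent.Lib.Helper76.CharIrr
import Cfsg.Agent.Lib.Helper76.Galois
import Cfsg.Agent.S0138

set_option autoImplicit false

namespace Cfsg.Agent.Lib.Helper76

open Module Representation
open scoped ComplexConjugate

variable {G : Type*} [Group G] [Fintype G] {V : Type*} [AddCommGroup V] [Module ℂ V]
  [FiniteDimensional ℂ V]

theorem sum_norm_sq_char (ρ : Representation ℂ G V) (hρ : ρ.IsIrreducible) :
    ∑ g : G, ‖ρ.character g‖ ^ 2 = (Fintype.card G : ℝ) := by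
  have h := irr_orthogonality (isIrrCharacter_of_rep ρ hρ) (isIrrCharacter_of_rep ρ hρ)
  rw [if_pos rfl] at h
  unfold Cfsg.classInner at h
  have hne : (Nat.card G : ℂ) ≠ 0 := by exact_mod_cast Nat.card_pos.ne'
  rw [inv_mul_eq_one₀ hne] at h
  have h2 : ((∑ g : G, ‖ρ.character g‖ ^ 2 : ℝ) : ℂ) = (Fintype.card G : ℂ) := by
    rw [← Nat.card_eq_fintype_card, h]
    push_cast
    apply Finset.sum_congr rfl
    intro g _
    rw [Complex.mul_conj, Complex.normSq_eq_norm_sq]
    push_cast
    rfl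
  exact_mod_cast h2

theorem norm_char_pow_of_center (ρ : Representation ℂ G V) (g : G)
    (h : ‖ρ.character g‖ = (finrank ℂ V : ℝ)) (k : ℕ) :
    ‖ρ.character (g ^ k)‖ = (finrank ℂ V : ℝ) := by
  rw [Cfsg.Agent.S0138.result] at h ⊢
  obtain ⟨ω, hω⟩ := h
  refine ⟨ω ^ k, ?_⟩
  rw [map_pow, hω]
  ext v
  induction k with
  | zero => simp
  | succ k ih =>
    rw [pow_succ, Module.End.mul_apply]
    simp only [LinearMap.smul_apply, LinearMap.id_coe, id_eq, map_smul] at ih ⊢
    rw [ih, smul_smul, pow_succ, mul_comm]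

/-- Galois average of `|χ|^2` over coprime powers. -/
theorem exists_avg (ρ : Representation ℂ G V) (hρ : ρ.IsIrreducible) :
    ∃ a : G → ℝ, (∑ g, a g = (Fintype.card G : ℝ)) ∧ (∀ g, 0 ≤ a g) ∧
      (∀ g, ρ.character g ≠ 0 → 1 ≤ a g) ∧
      (∀ g, ‖ρ.character g‖ = (finrank ℂ V : ℝ) → a g = (finrank ℂ V : ℝ) ^ 2) := by
  obtain ⟨ι, _, hne, k, hk, H⟩ := galois_avg (Fintype.card G) Fintype.card_pos
  have hι : (0 : ℝ) < Fintype.card ι := by exact_mod_cast Fintype.card_pos
  refine ⟨fun g => (Fintype.card ι : ℝ)⁻¹ * ∑ j, ‖ρ.character (g ^ k j)‖ ^ 2, ?_, ?_, ?_, ?_⟩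
  · rw [← Finset.mul_sum, Finset.sum_comm]
    have : ∀ j, ∑ g : G, ‖ρ.character (g ^ k j)‖ ^ 2 = (Fintype.card G : ℝ) := by
      intro j
      rw [← sum_norm_sq_char ρ hρ]
      have hc : (Nat.card G).Coprime (k j) := by
        rw [Nat.card_eq_fintype_card]
        exact (hk j).symm
      exact Equiv.sum_comp (powCoprime hc) (fun g => ‖ρ.character g‖ ^ 2)
    rw [Finset.sum_congr rfl (fun j _ => this j)]
    simp only [Finset.sum_const, Finset.card_univ, nsmul_eq_mul]
    field_simp
  · intro g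
    positivity
  · intro g hg
    obtain ⟨μ, h1, h2⟩ := exists_char_eigenvalues ρ g (Fintype.card G) Fintype.card_pos
      (pow_card_eq_one)
    have h3 := (H _ μ h1 (by
      have := h2 1
      simp only [pow_one] at this
      rw [← this]
      exact hg)).2.2
    have h4 : ∑ j, ‖ρ.character (g ^ k j)‖ ^ 2 = ∑ j, ‖∑ i, μ i ^ k j‖ ^ 2 := by
      apply Finset.sum_congr rfl
      intro j _
      rw [h2]
    beta_reduce
    rw [h4]
    rw [le_inv_mul_iff₀ hι, mul_one]
    exact h3
  · intro g hg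
    have : ∀ j, ‖ρ.character (g ^ k j)‖ ^ 2 = (finrank ℂ V : ℝ) ^ 2 := by
      intro j
      rw [norm_char_pow_of_center ρ g hg]
    beta_reduce
    rw [Finset.sum_congr rfl (fun j _ => this j)]
    simp only [Finset.sum_const, Finset.card_univ, nsmul_eq_mul]
    field_simp

omit [Fintype G] in
theorem finrank_pos_of_irr (ρ : Representation ℂ G V) (hρ : ρ.IsIrreducible) : 0 < finrank ℂ V := by
  have := ((isIrreducible_iff' ρ).mp hρ).1
  exact Module.finrank_pos

theorem zeros_bound [DecidableEq G] (ρ : Representation ℂ G V) (hρ : ρ.IsIrreducible) :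
    ((finrank ℂ V : ℝ) ^ 2 - 1) *
      ((Finset.univ.filter (fun g : G => ‖ρ.character g‖ = (finrank ℂ V : ℝ))).card : ℝ) ≤
      ((Finset.univ.filter (fun g : G => ρ.character g = 0)).card : ℝ) := by
  classical
  obtain ⟨a, ha1, ha2, ha3, ha4⟩ := exists_avg ρ hρ
  have hd : (1 : ℝ) ≤ finrank ℂ V := by exact_mod_cast finrank_pos_of_irr ρ hρ
  have hpt : ∀ g : G, ((finrank ℂ V : ℝ) ^ 2 - 1) * (if ‖ρ.character g‖ = (finrank ℂ V : ℝ) then 1 else 0)
      - (if ρ.character g = 0 then 1 else 0) ≤ a g - 1 := by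
    intro g
    by_cases h1 : ‖ρ.character g‖ = (finrank ℂ V : ℝ)
    · have h2 : ρ.character g ≠ 0 := by
        intro h0
        rw [h0, norm_zero] at h1
        linarith
      rw [if_pos h1, if_neg h2, ha4 g h1]
      linarith
    · rw [if_neg h1]
      by_cases h2 : ρ.character g = 0
      · rw [if_pos h2]
        have := ha2 g
        linarith
      · rw [if_neg h2]
        have := ha3 g h2
        linarith
  have hsum := Finset.sum_le_sum (fun g (_ : g ∈ Finset.univ) => hpt g)
  rw [Finset.sum_sub_distrib, Finset.sum_sub_distrib, ha1, ← Finset.mul_sum] at hsum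
  simp only [Finset.sum_boole, Finset.sum_const, Finset.card_univ, nsmul_eq_mul, mul_one,
    sub_self] at hsum
  linarith

theorem zeros_eq [DecidableEq G] (ρ : Representation ℂ G V) (hρ : ρ.IsIrreducible)
    (hval : ∀ g : G, ‖ρ.character g‖ = 0 ∨ ‖ρ.character g‖ = 1 ∨ ‖ρ.character g‖ = (finrank ℂ V : ℝ)) :
    ((finrank ℂ V : ℝ) ^ 2 - 1) *
      ((Finset.univ.filter (fun g : G => ‖ρ.character g‖ = (finrank ℂ V : ℝ))).card : ℝ) =
      ((Finset.univ.filter (fun g : G => ρ.character g = 0)).card : ℝ) := by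
  classical
  have hd : (1 : ℝ) ≤ finrank ℂ V := by exact_mod_cast finrank_pos_of_irr ρ hρ
  have hpt : ∀ g : G, ((finrank ℂ V : ℝ) ^ 2 - 1) * (if ‖ρ.character g‖ = (finrank ℂ V : ℝ) then 1 else 0)
      - (if ρ.character g = 0 then 1 else 0) = ‖ρ.character g‖ ^ 2 - 1 := by
    intro g
    by_cases h1 : ‖ρ.character g‖ = (finrank ℂ V : ℝ)
    · have h2 : ρ.character g ≠ 0 := by
        intro h0
        rw [h0, norm_zero] at h1
        linarith
      rw [if_pos h1, if_neg h2, h1]
      ring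
    · rw [if_neg h1]
      rcases hval g with h | h | h
      · rw [if_pos (norm_eq_zero.mp h), h]
        ring
      · have h2 : ρ.character g ≠ 0 := by
          intro h0
          rw [h0, norm_zero] at h
          exact zero_ne_one h
        rw [if_neg h2, h]
        ring
      · exact absurd h h1
  have hsum := Finset.sum_congr rfl (fun g (_ : g ∈ Finset.univ) => hpt g)
  rw [Finset.sum_sub_distrib, Finset.sum_sub_distrib, sum_norm_sq_char ρ hρ, ← Finset.mul_sum] at hsum
  simp only [Finset.sum_boole, Finset.sum_const, Finset.card_univ, nsmul_eq_mul, mul_one,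
    sub_self] at hsum
  linarith

end Cfsg.Agent.Lib.Helper76
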